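/-
The derived series of a maximal subgroup of the explicit `Fi23`: data.
-/
import Mathlib

set_option autoImplicit false

namespace Cfsg.Agent.Lib.Fischer.M23.Max

/-- The commutator of two words. -/
def wC (u v : List ℕ) : List ℕ := v.reverse ++ u.reverse ++ v ++ u

/-- Pairs of a word inverting the central element and a rotation, which the word inverts. -/
def frL : List (List ℕ × List ℕ) := [([28836, 26566, 28660], [31598, 26566]), ([27505, 25183, 27299], [29709, 25183]), ([27505, 25183, 27299], [29108, 27299]), ([4142, 1242, 8033], [19350, 1242]), ([10062, 3017, 8286], [23120, 10062]), ([10062, 3017, 8286], [24633, 8286]), ([12469, 569, 4120], [23889, 12469]), ([12308, 1948, 7556], [12985, 12308]), ([12308, 1948, 7556], [12125, 1948]), ([12308, 1948, 7556], [20661, 7556]), ([16022, 1159, 4055], [17044, 16022]), ([16022, 1159, 4055], [22859, 4055]), ([119, 18, 320], [3273, 119]), ([29020, 25392, 27690], [30684, 29020]), ([10638, 2961, 5096], [7945, 2961]), ([31491, 25382, 29133], [31525, 31491]), ([31491, 25382, 29133], [31647,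 25382]), ([31491, 25382, 29133], [31455, 29133]), ([2255, 278, 5670], [17847, 278]), ([2255, 278, 5670], [16547, 5670])]

/-- The pairs of indices at the levels of the derived series, from the second one on. -/
def spL : List (List (ℕ × ℕ)) := [[(8, 11), (10, 15), (19, 7), (4, 19), (9, 0), (16, 5), (6, 17), (13, 5), (12, 11), (3, 2), (19, 8), (18, 15), (6, 1), (2, 6), (19, 14)], [(5, 10), (1, 13), (2, 4), (6, 2), (3, 11), (14, 9), (10, 11), (7, 14), (14, 0), (14, 12), (8, 7)], [(2, 0), (10, 9), (8, 5), (0, 10), (10, 2), (2, 6), (9, 1), (3, 2), (4, 6), (7, 5), (8, 4)], [(3, 5), (6, 4), (9, 8), (10, 1), (1, 0), (8, 2), (7, 4), (10, 6), (7, 3)], [(7, 5), (7, 8), (1, 3), (3, 4), (0, 8), (2, 6), (4, 6)], [(4, 6), (2, 5), (3, 1), (0, 5)], [(3, 0), (2, 1)], [(1, 0)]]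

/-- The words at the levels of the derived series, from the first one on. -/
def lvW : ℕ → List (List ℕ)
  | 0 => frL.map Prod.snd
  | k + 1 => (spL.getD k []).map fun ij => wC ((lvW k).getD ij.1 []) ((lvW k).getD ij.2 [])

end Cfsg.Agent.Lib.Fischer.M23.Max
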