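/-
The order of the centralizer of the central element of a Sylow 3-subgroup of the explicit `Fi23`.
-/
import Mathlib
import Cfsg.Agent.Lib.Fischer.M23.Max.Low0
import Cfsg.Agent.Lib.Fischer.M23.Max.Low1

set_option autoImplicit false
set_option maxRecDepth 100000

namespace Cfsg.Agent.Lib.Fischer.M23.Max

open Cfsg.Agent.Lib.Compute.ToddCoxeterCore Cfsg.Agent.Lib.Compute.TCChain
open Cfsg.Agent.Lib.Fischer.M23.Explicit Cfsg.Agent.Lib.Fischer.M23.Rows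

theorem all_gens {Yl : List ℕ} {gens : List (List ℕ)} (hY : ∀ b ∈ Yl, b < NN) (h : gens.all (chkG Yl) = true) :
    ∀ w ∈ gens, wOK w = true ∧ wE w ∈ Cz ⊓ CY (Orb.Ylw Yl) := fun w hw =>
  mem_of_chkG hY (List.all_eq_true.1 h w hw)

theorem lo0 : 19683 * Nat.card ↥(Cz ⊓ CY (Orb.Ylw [11])) ≤ Nat.card ↥(Cz ⊓ CY (Orb.Ylw [])) := by
  have h := Orb.card_ge_step (H := Cz) (Yl := []) (gens := gens0) (all_gens (by simp) hg0) (b := 11) (by decide) hT0
  rwa [cnt0] at h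

theorem lo1 : 36 * Nat.card ↥(Cz ⊓ CY (Orb.Ylw [11, 7])) ≤ Nat.card ↥(Cz ⊓ CY (Orb.Ylw [11])) := by
  have h := Orb.card_ge_step (H := Cz) (Yl := [11]) (gens := gens1) (all_gens (by decide) hg1) (b := 7) (by decide) hT1
  rwa [cnt1] at h

theorem lo2 : 8 * Nat.card ↥(Cz ⊓ CY (Orb.Ylw [11, 7, 331])) ≤ Nat.card ↥(Cz ⊓ CY (Orb.Ylw [11, 7])) := by
  have h := Orb.card_ge_step (H := Cz) (Yl := [11, 7]) (gens := gens2) (all_gens (by decide) hg2) (b := 331) (by decide) hT2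
  rwa [cnt2] at h

theorem lo3 : 3 * Nat.card ↥(Cz ⊓ CY (Orb.Ylw [11, 7, 331, 46])) ≤ Nat.card ↥(Cz ⊓ CY (Orb.Ylw [11, 7, 331])) := by
  have h := Orb.card_ge_step (H := Cz) (Yl := [11, 7, 331]) (gens := gens3) (all_gens (by decide) hg3) (b := 46) (by decide) hT3
  rwa [cnt3] at h

theorem lo4 : 3 * Nat.card ↥(Cz ⊓ CY (Orb.Ylw [11, 7, 331, 46, 640])) ≤ Nat.card ↥(Cz ⊓ CY (Orb.Ylw [11, 7, 331, 46])) := by
  have h := Orb.card_ge_step (H := Cz) (Yl := [11, 7, 331, 46]) (gens := gens4) (all_gens (by decide) hg4) (b := 640) (by decide) hT4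
  rwa [cnt4] at h

theorem lo5 : 32 * Nat.card ↥(Cz ⊓ CY (Orb.Ylw [11, 7, 331, 46, 640, 4])) ≤ Nat.card ↥(Cz ⊓ CY (Orb.Ylw [11, 7, 331, 46, 640])) := by
  have h := Orb.card_ge_step (H := Cz) (Yl := [11, 7, 331, 46, 640]) (gens := gens5) (all_gens (by decide) hg5) (b := 4) (by decide) hT5
  rwa [cnt5] at h

/-- The order of the centralizer. -/
theorem card_Cz : Nat.card Cz = 1632586752 := by
  apply le_antisymm card_Cz_le
  have h0 := lo0
  have h1 := lo1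
  have h2 := lo2
  have h3 := lo3
  have h4 := lo4
  have h5 := lo5
  have h6 : 0 < Nat.card ↥(Cz ⊓ CY (Orb.Ylw [11, 7, 331, 46, 640, 4])) := Nat.card_pos
  have h7 : Cz ⊓ CY (Orb.Ylw []) = Cz := by
    rw [Orb.CY_nil, inf_top_eq]
  rw [h7] at h0
  omega

end Cfsg.Agent.Lib.Fischer.M23.Max
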