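/-
A solvable maximal subgroup of derived length at least ten of the explicit `Fi23`: the normalizer of the centre of a Sylow 3-subgroup.
-/
import Mathlib
import Cfsg.Agent.Lib.Fischer.M23.Max.Lower
import Cfsg.Agent.Lib.Fischer.M23.Max.YBData
import Cfsg.Agent.Lib.Fischer.M23.Max.DerData
import Cfsg.Agent.Lib.Fischer.M22.Rows.Prime
import Cfsg.Agent.Lib.Char.Burnside2

set_option autoImplicit false
set_option maxRecDepth 100000

namespace Cfsg.Agent.Lib.Fischer.M23.Max

open Cfsg Cfsg.Agent.Lib.Compute.ToddCoxeterCore Cfsg.Agent.Lib.Compute.TCChain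
open Cfsg.Agent.Lib.Compute.ToddCoxeterPresented hiding TT
open Cfsg.Agent.Lib.Compute.TCFast Cfsg.Agent.Lib.Compute.TC
open Cfsg.Agent.Lib.Fischer.M23.Explicit Cfsg.Agent.Lib.Fischer.M23.Rows
open Cfsg.Agent.Lib.Fischer.M22.Rows.Prime (card_normalizer_le mem_normalizer_zpowers)
open scoped commutatorElement

instance : Fact (Nat.Prime 3) := ⟨by norm_num⟩

theorem zz_pow : zz ^ 3 = 1 := by
  rw [zz, ← wE_pow]
  exact wE_eq (v := []) (by decide +kernel)

theorem zz_ne : zz ≠ 1 := wE_ne_one (i := 11) (by decide +kernel)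

theorem zz_order : orderOf zz = 3 := orderOf_eq_prime zz_pow zz_ne

/-- The subgroup of order three. -/
noncomputable def Zz : Subgroup G1 := Subgroup.zpowers zz

theorem card_Zz : Nat.card Zz = 3 := by
  rw [Zz, Nat.card_zpowers, zz_order]

/-- Its normalizer. -/
noncomputable def HH : Subgroup G1 := Subgroup.normalizer ((Zz : Subgroup G1) : Set G1)

theorem Cz_le_HH : Cz ≤ HH := by
  intro u hu
  show u ∈ Subgroup.normalizer ((Subgroup.zpowers zz : Subgroup G1) : Set G1)
  apply mem_normalizer_zpowers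
  rw [Subgroup.mem_centralizer_singleton_iff.1 hu]
  simp [Subgroup.mem_zpowers]

/-! ### Maximality -/

theorem zz_val (i : Fin NN) : ((φ zz i : Fin NN) : ℕ) = run aV zW i := wE_val (by decide +kernel) i

theorem t_mem_Cz {q : Fin NN} (h : φ zz q = q) : t q ∈ Cz :=
  Subgroup.mem_centralizer_singleton_iff.2 ((comm_t_iff' zz q).2 h).symm.eq

theorem t_val (a i : Fin NN) : ((φ (t a) i : Fin NN) : ℕ) = aV ((a : ℕ) + 16) i := by
  have ha : (a : ℕ) + 16 < 31687 := by
    have : (a : ℕ) < 31671 := a.2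
    omega
  have h : aG ((a : ℕ) + 16) = t a := by
    unfold aG
    rw [if_neg (by omega)]
    have h1 : (a : ℕ) + 16 - 16 = a := by omega
    rw [h1]
    exact tn_val a
  rw [← aV_spec ha i, h]

theorem gens0_mem : ∀ w ∈ gens0, wOK w = true ∧ wE w ∈ Cz := fun w hw =>
  let h := mem_of_chkG (Yl := []) (by simp) (List.all_eq_true.1 hg0 w hw)
  ⟨h.1, (Subgroup.mem_inf.1 h.2).1⟩

theorem reach0 : ∀ q : Fin NN, tb Om0 q = true → ∃ k ∈ Cz, φ k ⟨11, by decide⟩ = q :=
  Orb.reach_of_tree gens0_mem (by decide) hT0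

theorem reachA : ∀ q : Fin NN, tb OmA q = true → ∃ k ∈ Cz, φ k ⟨29, by decide⟩ = q :=
  Orb.reach_of_tree gens0_mem (by decide) hTA

theorem mem_of_reach {K : Subgroup G1} (hC : Cz ≤ K) {r q : Fin NN} (h : ∃ k ∈ Cz, φ k r = q) :
    t r ∈ K ↔ t q ∈ K := by
  obtain ⟨k, hk, rfl⟩ := h
  have hk' := hC hk
  rw [← t_conj]
  constructor
  · intro h1
    exact mul_mem (mul_mem hk' h1) (inv_mem hk')
  · intro h1
    have h2 := mul_mem (mul_mem (inv_mem hk') h1) hk'
    have e : k⁻¹ * (k * t r * k⁻¹) * k = t r := by group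
    rwa [e] at h2

theorem cover' (p : Fin NN) : φ zz p = p ∨ tb Om0 p = true ∨ tb OmA p = true := by
  have hp : (p : ℕ) < 31671 := p.2
  have h := allFrom_spec cover p (Nat.zero_le _) (by show (p : ℕ) < 0 + 31671; omega)
  simp only [Bool.or_eq_true] at h
  rcases h with (h | h) | h
  · left
    apply Fin.ext
    rw [zz_val]
    exact beq_iff.1 h
  · exact Or.inr (Or.inl h)
  · exact Or.inr (Or.inr h)

/-- A transposition outside the centralizer forces all transpositions. -/
theorem all_t_mem {K : Subgroup G1} (hC : Cz ≤ K) {q : Fin NN} (ht : t q ∈ K) (hq : φ zz q ≠ q) (p : Fin NN) : t p ∈ K := by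
  have r0 : ∀ {a : Fin NN}, tb Om0 a = true → (t ⟨11, by decide⟩ ∈ K ↔ t a ∈ K) := fun h => mem_of_reach hC (reach0 _ h)
  have rA : ∀ {a : Fin NN}, tb OmA a = true → (t ⟨29, by decide⟩ ∈ K ↔ t a ∈ K) := fun h => mem_of_reach hC (reachA _ h)
  have h0A : t ⟨11, by decide⟩ ∈ K → t ⟨29, by decide⟩ ∈ K := by
    intro h
    obtain ⟨c1, c2, c3, c4⟩ := cross0
    have h1 : t ⟨11, by decide⟩ ∈ K := (r0 (a := ⟨11, by decide⟩) c1).1 h
    have h2 : t ⟨4508, by decide⟩ ∈ K := (r0 (a := ⟨4508, by decide⟩) c2).1 h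
    have h3 := mul_mem (mul_mem h1 h2) (inv_mem h1)
    rw [t_conj] at h3
    have e : φ (t ⟨11, by decide⟩) ⟨4508, by decide⟩ = ⟨1298, by decide⟩ := Fin.ext ((t_val _ _).trans c4)
    rw [e] at h3
    exact (rA (a := ⟨1298, by decide⟩) c3).2 h3
  have hA0 : t ⟨29, by decide⟩ ∈ K → t ⟨11, by decide⟩ ∈ K := by
    intro h
    obtain ⟨c1, c2, c3, c4⟩ := crossA
    have h1 : t ⟨29, by decide⟩ ∈ K := (rA (a := ⟨29, by decide⟩) c1).1 h
    have h2 : t ⟨2771, by decide⟩ ∈ K := (rA (a := ⟨2771, by decide⟩) c2).1 h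
    have h3 := mul_mem (mul_mem h1 h2) (inv_mem h1)
    rw [t_conj] at h3
    have e : φ (t ⟨29, by decide⟩) ⟨2771, by decide⟩ = ⟨8545, by decide⟩ := Fin.ext ((t_val _ _).trans c4)
    rw [e] at h3
    exact (r0 (a := ⟨8545, by decide⟩) c3).2 h3
  have hroots : t ⟨11, by decide⟩ ∈ K ∧ t ⟨29, by decide⟩ ∈ K := by
    rcases cover' q with h | h | h
    · exact absurd h hq
    · have := (r0 h).2 ht
      exact ⟨this, h0A this⟩
    · have := (rA h).2 ht
      exact ⟨hA0 this, this⟩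
  rcases cover' p with h | h | h
  · exact hC (t_mem_Cz h)
  · exact (r0 h).1 hroots.1
  · exact (rA h).1 hroots.2

theorem eq_top_of_t {K : Subgroup G1} (h : ∀ p : Fin NN, t p ∈ K) : K = ⊤ := by
  rw [eq_top_iff, ← elG_closure Fi23a.hR Fi23a.small Fi23a.big Fi23a.hgens, Subgroup.closure_le]
  rintro _ ⟨k, hk, rfl⟩
  have hk' : k < 10 := hk
  have h1 : L k = t ⟨lab k, lab_lt k (by omega)⟩ := by
    rw [← T_letter hk']
    exact tn_val ⟨lab k, lab_lt k (by omega)⟩
  show L k ∈ K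
  rw [h1]
  exact h _

theorem YB_lt : ∀ b ∈ YB, b < NN := by decide +kernel

theorem YB_fix : ∀ b ∈ YB, run aV zW b = b := by decide +kernel

theorem zz_fix {b : ℕ} (hb : b ∈ YB) (hn : b < NN) : φ zz ⟨b, hn⟩ = ⟨b, hn⟩ :=
  Fin.ext ((zz_val _).trans (YB_fix b hb))

theorem CYB_eq : Zz = CY (Orb.Ylw YB) := by
  apply Subgroup.eq_of_le_of_card_ge
  · rw [Zz, Subgroup.zpowers_le]
    exact Orb.mem_CY_labels YB_lt fun b hb => zz_fix hb _
  · rw [card_Zz]
    exact card_CYB

theorem HH_ne_top : HH ≠ ⊤ := by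
  intro h
  have hn : Zz.Normal := Subgroup.normalizer_eq_top_iff.1 h
  rcases simple1.eq_bot_or_eq_top_of_normal _ hn with h1 | h1
  · apply zz_ne
    have : zz ∈ Zz := Subgroup.mem_zpowers zz
    rw [h1] at this
    exact this
  · have h2 := card_Zz
    rw [h1, Subgroup.card_top, card1] at h2
    norm_num at h2

/-- The normalizer is a maximal subgroup. -/
theorem coatom_HH : IsCoatom HH := by
  refine ⟨HH_ne_top, fun K hK => ?_⟩
  have hC : Cz ≤ K := Cz_le_HH.trans hK.le
  by_cases hq : ∃ q : Fin NN, t q ∈ K ∧ φ zz q ≠ q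
  · obtain ⟨q, h1, h2⟩ := hq
    exact eq_top_of_t (all_t_mem hC h1 h2)
  · exfalso
    push Not at hq
    apply hK.not_ge
    intro k hk
    show k ∈ Subgroup.normalizer ((Subgroup.zpowers zz : Subgroup G1) : Set G1)
    apply mem_normalizer_zpowers
    have : k * zz * k⁻¹ ∈ Zz := by
      rw [CYB_eq]
      apply Orb.mem_CY_labels YB_lt
      intro b hb
      have h1 := zz_fix hb (YB_lt b hb)
      have h2 : t ⟨b, YB_lt b hb⟩ ∈ K := hC (t_mem_Cz h1)
      have h3 : t (φ k⁻¹ ⟨b, YB_lt b hb⟩) ∈ K := by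
        rw [← t_conj]
        exact mul_mem (mul_mem (inv_mem hk) h2) (inv_mem (inv_mem hk))
      have h4 := hq _ h3
      simp only [map_mul, Equiv.Perm.coe_mul, Function.comp_apply]
      rw [h4, ← Equiv.Perm.mul_apply, ← map_mul, mul_inv_cancel, map_one]
      rfl
    exact this

/-! ### Solvability -/

/-- The normalizer is solvable. -/
theorem solvable_HH : Group.IsSolvable HH := by
  have h1 : Nat.card HH ≤ (3 - 1) * Nat.card Cz := card_normalizer_le zz_order
  have h2 : Nat.card Cz ∣ Nat.card HH := Subgroup.card_dvd_of_le Cz_le_HH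
  rw [card_Cz] at h1 h2
  obtain ⟨m, hm⟩ := h2
  have h3 : 0 < Nat.card HH := Nat.card_pos
  have hm1 : m = 1 ∨ m = 2 := by omega
  rcases hm1 with rfl | rfl
  · exact Cfsg.Agent.Lib.Char.Burnside2.isSolvable_of_card_eq (p := 2) (q := 3) (by norm_num) (by norm_num) _ _ 10 13 rfl
      (by rw [hm]; norm_num)
  · exact Cfsg.Agent.Lib.Char.Burnside2.isSolvable_of_card_eq (p := 2) (q := 3) (by norm_num) (by norm_num) _ _ 11 13 rfl
      (by rw [hm]; norm_num)

/-! ### The derived series -/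

/-- Membership in a term of the derived series. -/
def InD (k : ℕ) (x : G1) : Prop := x ∈ (derivedSeries HH k).map HH.subtype

theorem InD_zero {x : G1} (hx : x ∈ HH) : InD 0 x :=
  Subgroup.mem_map.2 ⟨⟨x, hx⟩, by simp [derivedSeries_zero], rfl⟩

theorem InD_one (k : ℕ) : InD k 1 := one_mem _

theorem InD_comm {k : ℕ} {x y : G1} (hx : InD k x) (hy : InD k y) : InD (k + 1) ⁅x, y⁆ := by
  obtain ⟨a, ha, rfl⟩ := Subgroup.mem_map.1 hx
  obtain ⟨b, hb, rfl⟩ := Subgroup.mem_map.1 hy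
  refine Subgroup.mem_map.2 ⟨⁅a, b⁆, ?_, map_commutatorElement _ _ _⟩
  rw [derivedSeries_succ]
  exact Subgroup.commutator_mem_commutator ha hb

theorem wE_wC (u v : List ℕ) : wE (wC u v) = ⁅wE u, wE v⁆ := by
  unfold wC
  rw [wE_append, wE_append, wE_append, wE_rev, wE_rev, commutatorElement_def]
  group

theorem frL_chk : frL.all (fun a => wEq (wConj a.1 zW) zW.reverse && wEq (wConj a.2 zW) zW && wEq (wC a.1 a.2) a.2) = true := by
  decide +kernel

theorem InD_lv0 : ∀ w ∈ lvW 0, InD 1 (wE w) := by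
  intro w hw
  have hw' : w ∈ frL.map Prod.snd := hw
  obtain ⟨a, ha, rfl⟩ := List.mem_map.1 hw'
  have h := List.all_eq_true.1 frL_chk a ha
  simp only [Bool.and_eq_true] at h
  obtain ⟨⟨h1, h2⟩, h3⟩ := h
  have e1 := wE_eq h1
  have e2 := wE_eq h2
  have e3 := wE_eq h3
  rw [wE_conj] at e1 e2
  rw [wE_wC] at e3
  have hn : wE a.1 ∈ HH := by
    show wE a.1 ∈ Subgroup.normalizer ((Subgroup.zpowers (wE zW) : Subgroup G1) : Set G1)
    apply mem_normalizer_zpowers
    rw [e1, wE_rev]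
    exact inv_mem (Subgroup.mem_zpowers _)
  have hx : wE a.2 ∈ HH := by
    show wE a.2 ∈ Subgroup.normalizer ((Subgroup.zpowers (wE zW) : Subgroup G1) : Set G1)
    apply mem_normalizer_zpowers
    rw [e2]
    exact Subgroup.mem_zpowers _
  rw [← e3]
  exact InD_comm (InD_zero hn) (InD_zero hx)

theorem InD_getD {k : ℕ} (h : ∀ w ∈ lvW k, InD (k + 1) (wE w)) (i : ℕ) : InD (k + 1) (wE ((lvW k).getD i [])) := by
  by_cases hi : i < (lvW k).length
  · rw [List.getD_eq_getElem _ _ hi]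
    exact h _ (List.getElem_mem _)
  · rw [List.getD_eq_default _ _ (by omega)]
    exact InD_one _

theorem InD_lv : ∀ k, ∀ w ∈ lvW k, InD (k + 1) (wE w) := by
  intro k
  induction k with
  | zero => exact InD_lv0
  | succ k ih =>
    intro w hw
    obtain ⟨a, _, rfl⟩ := List.mem_map.1 hw
    rw [wE_wC]
    exact InD_comm (InD_getD ih _) (InD_getD ih _)

theorem top_ne : wNe ((lvW 8).getD 0 []) [] 11 = true := by decide +kernel

/-- The ninth term of the derived series is not trivial. -/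
theorem derived9_ne : derivedSeries HH 9 ≠ ⊥ := by
  intro h
  have h1 : InD 9 (wE ((lvW 8).getD 0 [])) := InD_getD (InD_lv 8) 0
  unfold InD at h1
  rw [h] at h1
  simp only [Subgroup.map_bot, Subgroup.mem_bot] at h1
  exact wE_ne_one top_ne h1

/-- The derived series does not stop at the ninth term. -/
theorem derived_ne : derivedSeries HH 10 ≠ derivedSeries HH 9 := by
  intro h
  obtain ⟨n, hn⟩ := solvable_HH.solvable
  have key : ∀ j, derivedSeries HH (9 + j) = derivedSeries HH 9 := by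
    intro j
    induction j with
    | zero => rfl
    | succ j ih =>
      rw [← Nat.add_assoc, derivedSeries_succ, ih, ← derivedSeries_succ]
      exact h
  apply derived9_ne
  rw [← key n, eq_bot_iff, ← hn]
  exact derivedSeries_antitone HH (Nat.le_add_left n 9)

end Cfsg.Agent.Lib.Fischer.M23.Max
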