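/-
The central element of a Sylow 3-subgroup of the explicit `Fi23` and the upper bound for its centralizer.
-/
import Mathlib
import Cfsg.Agent.Lib.Fischer.M23.Max.UpData

set_option autoImplicit false
set_option maxRecDepth 100000

namespace Cfsg.Agent.Lib.Fischer.M23.Max

open Cfsg.Agent.Lib.Compute.ToddCoxeterCore Cfsg.Agent.Lib.Compute.TCChain
open Cfsg.Agent.Lib.Fischer.M23.Explicit Cfsg.Agent.Lib.Fischer.M23.Rows

/-- The central element. -/
noncomputable def zz : G1 := wE zW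

/-- Its centralizer. -/
noncomputable def Cz : Subgroup G1 := Subgroup.centralizer ({zz} : Set G1)

/-- The prefixes of the fixed elements. -/
def Yw1 : List (List ℕ) := [zW]
/-- The prefixes of the fixed elements. -/
def Yw2 : List (List ℕ) := Yw1 ++ [[27]]
/-- The prefixes of the fixed elements. -/
def Yw3 : List (List ℕ) := Yw2 ++ [[23]]
/-- The prefixes of the fixed elements. -/
def Yw4 : List (List ℕ) := Yw3 ++ [[347]]
/-- The prefixes of the fixed elements. -/
def Yw5 : List (List ℕ) := Yw4 ++ [[62]]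

theorem Yw6_eq : Yw6 = Yw5 ++ [[656]] := by decide +kernel

theorem chk5 : chkY 5 Yw5 YT = true :=
  Orb.chkY_prefix (w := [656]) (by decide +kernel) (by rw [← Yw6_eq]; exact chk6) (by decide +kernel)
theorem chk4 : chkY 4 Yw4 YT = true :=
  Orb.chkY_prefix (w := [62]) (by decide +kernel) chk5 (by decide +kernel)
theorem chk3 : chkY 3 Yw3 YT = true :=
  Orb.chkY_prefix (w := [347]) (by decide +kernel) chk4 (by decide +kernel)
theorem chk2 : chkY 2 Yw2 YT = true :=
  Orb.chkY_prefix (w := [23]) (by decide +kernel) chk3 (by decide +kernel)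
theorem chk1 : chkY 1 Yw1 YT = true :=
  Orb.chkY_prefix (w := [27]) (by decide +kernel) chk2 (by decide +kernel)

theorem st0 : Nat.card (CY Yw1) ≤ 19683 * Nat.card (CY Yw2) := by
  have h := card_CY_step chk1 ⟨11, by decide⟩ pairs0 negs0 hP0 hN0 Om0 hAll0
  rw [cnt0] at h
  exact h

theorem st1 : Nat.card (CY Yw2) ≤ 36 * Nat.card (CY Yw3) := by
  have h := card_CY_step chk2 ⟨7, by decide⟩ pairs1 negs1 hP1 hN1 Om1 hAll1
  rw [cnt1] at h
  exact h

theorem st2 : Nat.card (CY Yw3) ≤ 8 * Nat.card (CY Yw4) := by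
  have h := card_CY_step chk3 ⟨331, by decide⟩ pairs2 negs2 hP2 hN2 Om2 hAll2
  rw [cnt2] at h
  exact h

theorem st3 : Nat.card (CY Yw4) ≤ 3 * Nat.card (CY Yw5) := by
  have h := card_CY_step chk4 ⟨46, by decide⟩ pairs3 negs3 hP3 hN3 Om3 hAll3
  rw [cnt3] at h
  exact h

theorem st4 : Nat.card (CY Yw5) ≤ 3 * Nat.card (CY Yw6) := by
  have h := card_CY_step chk5 ⟨640, by decide⟩ pairs4 negs4 hP4 hN4 Om4 hAll4
  rw [cnt4] at h
  rw [Yw6_eq]
  exact h

theorem st5 : Nat.card (CY Yw6) ≤ 32 := by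
  have h := card_CY_le chk6 ⟨4, by decide⟩ Gw hG pairs5 negs5 hP5 hN5 Om5 hAll5
  rwa [cnt5] at h

/-- The upper bound for the centralizer. -/
theorem card_Cz_le : Nat.card Cz ≤ 1632586752 := by
  have h : Cz = CY Yw1 := (Orb.CY_single zW).symm
  rw [h]
  have h0 := st0
  have h1 := st1
  have h2 := st2
  have h3 := st3
  have h4 := st4
  have h5 := st5
  omega

/-- The check of a generator at a level of the lower bound. -/
noncomputable def chkG (Yl : List ℕ) (w : List ℕ) : Bool :=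
  wOK w && (Orb.fixesAll Yl w && wEq (wConj w zW) zW)

theorem mem_of_chkG {Yl w : List ℕ} (hY : ∀ b ∈ Yl, b < NN) (h : chkG Yl w = true) :
    wOK w = true ∧ wE w ∈ Cz ⊓ CY (Orb.Ylw Yl) := by
  unfold chkG at h
  rw [Bool.and_eq_true, Bool.and_eq_true] at h
  obtain ⟨h1, h2, h3⟩ := h
  refine ⟨h1, Subgroup.mem_inf.2 ⟨?_, Orb.mem_CY_of_fixes h1 hY h2⟩⟩
  have h4 := wE_eq h3
  rw [wE_conj] at h4
  refine Subgroup.mem_centralizer_singleton_iff.2 ?_
  show wE w * wE zW = wE zW * wE w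
  calc wE w * wE zW = wE w * wE zW * (wE w)⁻¹ * wE w := by group
    _ = wE zW * wE w := by rw [h4]

end Cfsg.Agent.Lib.Fischer.M23.Max
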